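import Mathlib
import Cfsg.Prelude.Def_Classical

/-!
# Explicit elements of `Ω₇(3)`
-/

set_option autoImplicit false

namespace Cfsg.Agent.E7V.O73

open Matrix

/-- index type -/
abbrev I : Type := Unit ⊕ (Fin 3 ⊕ Fin 3)

/-- matrices of degree seven -/
abbrev Mx : Type := Matrix (Fin 7) (Fin 7) (ZMod 3)

/-- the group -/
abbrev Om : Type := Cfsg.Omega (ZMod 3) (Cfsg.quadFormOdd 3 (ZMod 3))

/-- numbering of the coordinates -/
def en : I ≃ Fin 7 where
  toFun := Sum.elim (fun _ => 0) (Sum.elim ![1, 2, 3] ![4, 5, 6])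
  invFun := ![.inl (), .inr (.inl 0), .inr (.inl 1), .inr (.inl 2), .inr (.inr 0), .inr (.inr 1), .inr (.inr 2)]
  left_inv := by decide
  right_inv := by decide

/-- Gram matrix -/
def Gm : Mx := !![1,0,0,0,0,0,0; 0,0,0,0,2,0,0; 0,0,0,0,0,2,0; 0,0,0,0,0,0,2; 0,2,0,0,0,0,0; 0,0,2,0,0,0,0;
  0,0,0,2,0,0,0]

theorem q_eq (v : I → ZMod 3) :
    Cfsg.quadFormOdd 3 (ZMod 3) v = (v ∘ en.symm) ⬝ᵥ Gm *ᵥ (v ∘ en.symm) := by
  have h : (3 : ZMod 3) = 0 := rfl
  simp [Cfsg.quadFormOdd, Gm, en, Fin.sum_univ_three, dotProduct, Fin.sum_univ_seven, mulVec]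
  linear_combination (-(v (.inr (.inl 0)) * v (.inr (.inr 0))) - v (.inr (.inl 1)) * v (.inr (.inr 1))
    - v (.inr (.inl 2)) * v (.inr (.inr 2))) * h

/-- matrix of an isometry -/
def val0 : Cfsg.isometryGroup (ZMod 3) (Cfsg.quadFormOdd 3 (ZMod 3)) →* Mx :=
  ((reindexAlgEquiv (ZMod 3) (ZMod 3) en).toMulEquiv.toMonoidHom.comp (Units.coeHom _)).comp (Subgroup.subtype _)

theorem val0_inj : Function.Injective val0 :=
  ((reindexAlgEquiv (ZMod 3) (ZMod 3) en).injective.comp Units.val_injective).comp Subtype.val_injective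

/-- matrix of an element of `Ω` -/
def val : Om →* Mx := val0.comp (Subgroup.subtype _)

theorem val_inj : Function.Injective val := val0_inj.comp Subtype.val_injective

theorem ex0 {A B : Mx} (h : A * B = 1) (hA : Aᵀ * Gm * A = Gm) : ∃ x, val0 x = A := by
  have h' : B * A = 1 := mul_eq_one_comm.1 h
  refine ⟨⟨⟨A.submatrix en en, B.submatrix en en, ?_, ?_⟩, fun u _ => ?_⟩, ?_⟩
  · rw [submatrix_mul_equiv, h, submatrix_one_equiv]
  · rw [submatrix_mul_equiv, h', submatrix_one_equiv]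
  · have e : (A.submatrix en en *ᵥ u) ∘ en.symm = A *ᵥ (u ∘ en.symm) := by
      rw [submatrix_mulVec_equiv]
      ext i
      simp
    change Cfsg.quadFormOdd 3 (ZMod 3) (A.submatrix en en *ᵥ u) = Cfsg.quadFormOdd 3 (ZMod 3) u
    rw [q_eq, q_eq, e]
    conv_rhs => rw [← hA]
    rw [← mulVec_mulVec, ← mulVec_mulVec, dotProduct_mulVec _ Aᵀ, vecMul_transpose]
  · ext i j
    simp [val0]

open scoped commutatorElement in
theorem ex {A D : Mx} (h : A * A * A = 1) (hA : Aᵀ * Gm * A = Gm) (hD : D * D = 1) (hD' : Dᵀ * Gm * D = Gm)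
    (hc : D * A = A * A * D) : ∃ x, val x = A := by
  obtain ⟨a, ha⟩ := ex0 (by rw [← mul_assoc]; exact h) hA
  obtain ⟨d, hd⟩ := ex0 hD hD'
  have e1 : d * a = a * a * d := val0_inj (by simp only [map_mul, ha, hd, hc])
  have e2 : a * a * a = 1 := val0_inj (by simp only [map_mul, ha, map_one, h])
  have e3 : ⁅d, a⁆ = a := by
    rw [commutatorElement_def, e1]
    simp only [mul_assoc, mul_inv_cancel_left, mul_inv_cancel, mul_one]
  exact ⟨⟨a, e3 ▸ Subgroup.commutator_mem_commutator (Subgroup.mem_top d) (Subgroup.mem_top a)⟩, ha⟩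

/-- Eichler transformations -/
def T (w : Fin 5 → ZMod 3) : Mx :=
  !![1,0,0,0,w 0,0,0; -2 * w 0,1,-w 3,-w 4,-(w 0 ^ 2 + w 1 * w 3 + w 2 * w 4),-w 1,-w 2; 0,0,1,0,w 1,0,0;
    0,0,0,1,w 2,0,0; 0,0,0,0,1,0,0; 0,0,0,0,w 3,1,0; 0,0,0,0,w 4,0,1]

theorem T_add (a b : Fin 5 → ZMod 3) : T (a + b) = T a * T b := by
  ext i j
  fin_cases i <;> fin_cases j <;> simp [T, Matrix.mul_apply, Fin.sum_univ_seven] <;> ring

theorem T_zero : T 0 = 1 := by decide +kernel

/-- an involution inverting the Eichler transformations -/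
def D1 : Mx := diagonal ![1, -1, 1, 1, -1, 1, 1]

/-- an involution inverting the generators of the Levi factor -/
def D2 : Mx := diagonal ![1, 1, 2, 1, 1, 2, 1]

theorem T_iso (a : Fin 5 → ZMod 3) : (T a)ᵀ * Gm * T a = Gm := by
  have h : (3 : ZMod 3) = 0 := rfl
  ext i j
  fin_cases i <;> fin_cases j <;> simp [T, Gm, Matrix.mul_apply, Fin.sum_univ_seven] <;>
    first | ring1 | linear_combination (-2 * a 0) * h | linear_combination (2 * a 0) * h |
      linear_combination (-a 0) * h | linear_combination (a 0) * h | linear_combination (-(a 0) ^ 2) * h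

theorem T_inv (a : Fin 5 → ZMod 3) : D1 * T a = T (-a) * D1 := by
  ext i j
  rw [D1, diagonal_mul, mul_diagonal]
  fin_cases i <;> fin_cases j <;> simp [T]

theorem exT (a : Fin 5 → ZMod 3) : ∃ x, val x = T a := by
  have : a + a + a = 0 := by
    ext i
    have h : (3 : ZMod 3) = 0 := rfl
    simp only [Pi.add_apply, Pi.zero_apply]
    linear_combination (a i) * h
  refine ex (D := D1) ?_ (T_iso a) (by decide +kernel) (by decide +kernel)
    (by rw [T_inv, ← T_add, eq_neg_of_add_eq_zero_left this])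
  rw [← T_add, ← T_add, this, T_zero]

end Cfsg.Agent.E7V.O73
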