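import Mathlib

/-!
# Orbits of `Ω₅(3)` on the nonzero vectors
-/

set_option autoImplicit false

namespace Cfsg.Agent.E7V.O73

open Matrix

/-- action of the generators of the Levi factor on the radical -/
def Ms : Fin 4 → Matrix (Fin 5) (Fin 5) (ZMod 3) := ![!![1,0,0,1,0; 1,1,0,2,0; 0,0,1,0,0; 0,0,0,1,0; 0,0,0,0,1],
  !![1,1,0,0,0; 0,1,0,0,0; 0,0,1,0,0; 1,2,0,1,0; 0,0,0,0,1],
  !![1,0,0,0,0; 0,1,2,0,0; 0,0,1,0,0; 0,0,0,1,0; 0,0,0,1,1],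
  !![1,0,0,0,0; 0,1,0,0,0; 0,1,1,0,0; 0,0,0,1,2; 0,0,0,0,1]]

/-- decoding -/
def dec (n : ℕ) : Fin 5 → ZMod 3 := fun i => ((n / 3 ^ i.val : ℕ) : ZMod 3)

/-- orbit representatives -/
def root (n : ℕ) : ℕ := ([0, 1, 1, 3, 1, 1, 3, 1, 1, 3, 1, 1, 3, 1, 1, 3, 1, 1, 3, 1, 1, 3, 1, 1, 3, 1, 1, 3, 1, 1, 1, 31, 31, 31, 3,
  3, 3, 1, 1, 1, 31, 31, 31, 3, 3, 3, 1, 1, 1, 31, 31, 31, 3, 3, 3, 1, 1, 31, 3, 3, 1, 31, 31, 3, 1, 1, 31, 3,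
  3, 1, 31, 31, 3, 1, 1, 31, 3, 3, 1, 31, 31, 3, 1, 1, 3, 1, 1, 3, 1, 1, 1, 31, 31, 1, 31, 31, 1, 31, 31, 31,
  3, 3, 31, 3, 3, 31, 3, 3, 3, 1, 1, 1, 31, 31, 31, 3, 3, 1, 31, 31, 31, 3, 3, 3, 1, 1, 31, 3, 3, 3, 1, 1, 1,
  31, 31, 3, 1, 1, 31, 3, 3, 1, 31, 31, 1, 31, 31, 3, 1, 1, 31, 3, 3, 31, 3, 3, 1, 31, 31, 3, 1, 1, 3, 1, 1,
  3, 1, 1, 3, 1, 1, 31, 3, 3, 31, 3, 3, 31, 3, 3, 1, 31, 31, 1, 31, 31, 1, 31, 31, 3, 1, 1, 1, 31, 31, 31, 3,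
  3, 31, 3, 3, 3, 1, 1, 1, 31, 31, 1, 31, 31, 31, 3, 3, 3, 1, 1, 3, 1, 1, 31, 3, 3, 1, 31, 31, 31, 3, 3, 1,
  31, 31, 3, 1, 1, 1, 31, 31, 3, 1, 1, 31, 3, 3] : List ℕ).getD n 0

/-- parents -/
def par (n : ℕ) : ℕ := ([0, 1, 29, 3, 1, 4, 24, 4, 60, 15, 16, 14, 21, 22, 23, 12, 7, 8, 21, 22, 23, 3, 4, 5, 18, 22, 20, 108, 1, 28,
  29, 31, 31, 32, 115, 53, 44, 10, 65, 48, 49, 50, 33, 121, 15, 53, 19, 46, 30, 31, 32, 50, 53, 24, 58, 28,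
  60, 32, 3, 58, 55, 62, 57, 67, 65, 69, 75, 76, 77, 60, 229, 62, 76, 46, 20, 57, 58, 59, 25, 235, 75, 135,
  136, 110, 140, 82, 89, 159, 89, 141, 144, 145, 146, 156, 157, 158, 141, 142, 143, 153, 154, 155, 138, 139,
  140, 133, 103, 159, 81, 190, 191, 192, 193, 194, 195, 106, 107, 204, 205, 206, 102, 103, 104, 151, 88, 89,
  210, 100, 155, 84, 85, 86, 96, 208, 209, 54, 55, 56, 57, 58, 59, 60, 133, 62, 69, 118, 71, 63, 64, 65, 66,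
  67, 68, 75, 76, 77, 78, 112, 113, 72, 73, 74, 189, 190, 191, 221, 163, 166, 213, 166, 164, 198, 226, 200,
  210, 211, 212, 195, 196, 197, 207, 208, 209, 192, 193, 194, 204, 184, 206, 216, 28, 29, 30, 31, 32, 33, 241,
  242, 42, 226, 44, 237, 204, 38, 222, 40, 41, 48, 49, 50, 51, 220, 221, 241, 46, 47, 135, 190, 164, 194, 139,
  140, 217, 187, 195, 229, 151, 152, 144, 184, 185, 147, 169, 170, 238, 208, 182, 159, 166, 167, 235, 154,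
  155] : List ℕ).getD n 0

/-- generators -/
def gen (n : ℕ) : Fin 4 := ([0, 0, 0, 0, 1, 0, 2, 1, 0, 3, 1, 1, 2, 2, 2, 3, 2, 2, 3, 3, 1, 2, 2, 2, 3, 1, 1, 3, 0, 1, 1, 0, 0, 1, 3, 2,
  1, 0, 0, 2, 2, 2, 2, 3, 0, 1, 0, 1, 2, 2, 2, 1, 0, 0, 1, 0, 1, 0, 0, 0, 1, 0, 1, 1, 1, 1, 2, 2, 2, 2, 3, 2,
  1, 0, 0, 2, 2, 2, 0, 3, 1, 2, 0, 0, 0, 1, 1, 2, 0, 0, 2, 0, 2, 2, 2, 2, 2, 2, 2, 2, 0, 2, 2, 2, 2, 0, 1, 0,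
  2, 3, 3, 3, 3, 3, 3, 2, 2, 3, 3, 3, 2, 2, 2, 0, 2, 2, 3, 0, 0, 2, 2, 2, 2, 3, 3, 3, 3, 3, 3, 3, 3, 3, 2, 3,
  3, 0, 3, 3, 3, 3, 3, 3, 3, 3, 3, 3, 3, 2, 2, 3, 3, 3, 2, 2, 0, 0, 1, 0, 2, 1, 1, 2, 0, 0, 2, 2, 2, 2, 2, 2,
  2, 2, 0, 2, 2, 2, 2, 1, 2, 2, 3, 3, 3, 3, 3, 3, 2, 2, 3, 2, 3, 2, 1, 3, 2, 3, 3, 3, 3, 3, 3, 2, 2, 0, 3, 3,
  3, 0, 0, 0, 3, 3, 1, 2, 0, 1, 3, 3, 3, 2, 2, 3, 2, 2, 1, 0, 0, 3, 2, 2, 1, 3, 3] : List (Fin 4)).getD n 0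

/-- depth -/
def dep (n : ℕ) : ℕ := ([0, 0, 3, 0, 1, 2, 4, 2, 4, 4, 4, 5, 2, 3, 4, 3, 3, 5, 2, 3, 4, 1, 2, 3, 3, 3, 5, 6, 1, 2, 3, 0, 1, 2, 6, 5,
  5, 5, 6, 5, 2, 3, 3, 5, 4, 5, 4, 5, 4, 1, 2, 3, 5, 4, 2, 2, 4, 2, 1, 2, 3, 4, 3, 4, 6, 5, 4, 3, 4, 4, 4, 4,
  3, 5, 5, 3, 2, 3, 4, 4, 4, 4, 4, 5, 4, 5, 6, 5, 6, 5, 6, 6, 6, 6, 4, 5, 5, 5, 5, 5, 4, 5, 4, 3, 4, 4, 4, 5,
  5, 3, 4, 5, 2, 3, 4, 5, 6, 6, 4, 5, 5, 4, 5, 5, 7, 6, 5, 5, 5, 5, 6, 7, 6, 3, 4, 3, 3, 5, 3, 2, 3, 4, 4, 4,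
  5, 5, 5, 5, 7, 6, 5, 4, 5, 4, 3, 4, 5, 3, 4, 4, 6, 6, 6, 3, 4, 5, 4, 5, 6, 5, 5, 5, 6, 6, 5, 5, 6, 4, 6, 7,
  6, 3, 4, 5, 2, 3, 6, 3, 5, 5, 2, 3, 4, 1, 2, 3, 5, 6, 4, 6, 5, 6, 6, 7, 5, 3, 4, 5, 2, 3, 4, 4, 5, 5, 5, 6,
  4, 3, 5, 3, 3, 4, 4, 4, 4, 4, 5, 6, 6, 3, 4, 6, 6, 6, 6, 3, 5, 5, 5, 6, 4, 4, 5] : List ℕ).getD n 0

theorem tree : ∀ n < 243, root n = n ∨
    (par n < 243 ∧ dep (par n) < dep n ∧ root (par n) = root n ∧ dec n = dec (par n) ᵥ* Ms (gen n)) := by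
  decide +kernel

theorem big : ∀ r ∈ [1, 3, 31], 57 ≤ ((Finset.range 243).filter fun n => root n = r).card := by
  decide +kernel

theorem roots : ∀ n < 243, n = 0 ∨ root n ∈ [1, 3, 31] := by decide +kernel

/-- encoding -/
def enc (c : Fin 5 → ZMod 3) : ℕ :=
  (c 0).val + 3 * (c 1).val + 9 * (c 2).val + 27 * (c 3).val + 81 * (c 4).val

theorem dec_enc : ∀ c, enc c < 243 ∧ dec (enc c) = c := by decide +kernel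

theorem enc_dec : ∀ n < 243, enc (dec n) = n := by decide +kernel

theorem vanish (m : (Fin 5 → ZMod 3) → ℕ) (hs : ∑ c, m c = 56) (hm : ∀ k c, m (c ᵥ* Ms k) = m c)
    (c : Fin 5 → ZMod 3) (hc : c ≠ 0) : m c = 0 := by
  have h1 : ∀ d n, dep n = d → n < 243 → m (dec n) = m (dec (root n)) := by
    intro d
    induction d using Nat.strong_induction_on with
    | _ d ih =>
      intro n hd hn
      rcases tree n hn with h | ⟨a, b, e, f⟩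
      · rw [h]
      · rw [f, hm, ih _ (hd ▸ b) _ rfl a, e]
  obtain ⟨hn, hd⟩ := dec_enc c
  have h0 : enc c ≠ 0 := fun h => hc (by rw [← hd, h]; decide)
  have hr := (roots _ hn).resolve_left h0
  have hb := big _ hr
  set S := (Finset.range 243).filter fun n => root n = root (enc c) with hS
  have hi : Set.InjOn dec S := fun a ha b hb h => by
    have ha' := Finset.mem_range.1 (Finset.mem_filter.1 ha).1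
    have hb' := Finset.mem_range.1 (Finset.mem_filter.1 hb).1
    rw [← enc_dec a ha', h, enc_dec b hb']
  have h2 : ∑ n ∈ S, m (dec n) ≤ 56 := by
    rw [← Finset.sum_image hi, ← hs]
    exact Finset.sum_le_sum_of_subset (Finset.subset_univ _)
  have h3 : ∑ n ∈ S, m (dec n) = S.card * m c := by
    rw [← smul_eq_mul, ← Finset.sum_const]
    refine Finset.sum_congr rfl fun n h => ?_
    obtain ⟨a, b⟩ := Finset.mem_filter.1 h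
    rw [h1 _ n rfl (Finset.mem_range.1 a), b, ← h1 _ _ rfl hn, hd]
  by_contra h
  have : S.card * 1 ≤ S.card * m c := Nat.mul_le_mul_left _ (Nat.one_le_iff_ne_zero.2 h)
  omega

end Cfsg.Agent.E7V.O73
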